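import Cfsg.Agent.OddHalf.CoverAlt

/-!
# S4909, covers of the alternating groups: quaternion subgroups in centralizers of elements of odd order (helper19)
-/

set_option autoImplicit false

namespace Cfsg.Agent.HZ.Alt

open Subgroup Equiv
open Cfsg.Agent.SporRec.TwoAn (Cover)

section perm

variable {α : Type*} [Fintype α] [DecidableEq α]

/-- four orbits of `c` which are permuted by `w` -/
theorem exists_four {c w : Perm α} (hc : Odd (orderOf c)) (h : Commute w c) (h4 : w ^ 4 = 1) (h2 : w ^ 2 ≠ 1) :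
    ∃ (φ : Perm (Fin 4) →* Perm α) (m : ℕ), Odd m ∧ (∀ σ, c * φ σ = φ σ * c) ∧
      ∀ σ : Perm (Fin 4), (∀ k, σ k ≠ k) → (φ σ).support.card = 4 * m := by
  classical
  obtain ⟨p, hp⟩ : ∃ p, (w ^ 2) p ≠ p := by
    by_contra h1
    push Not at h1
    exact h2 (Equiv.ext h1)
  let O := MulAction.orbit (zpowers c) p
  have hcm : ∀ (j : ℕ) (g : zpowers c) (x : α), (w ^ j) (g • x) = g • (w ^ j) x := by
    rintro j ⟨_, i, rfl⟩ x
    exact congrArg (fun f : Perm α => f x) ((h.pow_left j).zpow_right i).eq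
  have hO : ∀ (g : zpowers c), ∀ x ∈ O, g • x ∈ O := fun g x hx => MulAction.mapsTo_smul_orbit g p hx
  have h1 : ∀ (j : ℕ), ∀ x ∈ O, (w ^ j) x ∈ O → (w ^ j) p ∈ O := by
    rintro j _ ⟨g, rfl⟩ hx
    have h3 := hO g⁻¹ _ hx
    rwa [hcm, inv_smul_smul] at h3
  have h3 : (w ^ 2) p ∉ O := by
    rintro ⟨g, hg⟩
    have h5 : ∀ j : ℕ, ((w ^ 2) ^ j) p = g ^ j • p := fun j => by
      induction j with
      | zero => simp
      | succ j ih => rw [pow_succ', Perm.mul_apply, ih, hcm, ← hg, smul_smul, pow_succ]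
    obtain ⟨k, hk⟩ := hc
    have h6 := h5 (2 * k + 1)
    rw [pow_succ, pow_mul, ← pow_mul w 2 2, h4, one_pow, one_mul, ← hk, ← Nat.card_zpowers, pow_card_eq_one',
      one_smul] at h6
    exact hp h6
  have h5 : ∀ (j : ℕ), ∀ x ∈ O, (w ^ j) x ∈ O → j % 4 = 0 := fun j x hx hj => by
    have h6 := h1 j x hx hj
    have h7 : (w ^ (j + j)) p ∈ O := by
      obtain ⟨g, hg⟩ := h6
      rw [pow_add, Perm.mul_apply, ← hg, hcm, ← hg]
      exact hO g _ ⟨g, rfl⟩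
    rw [pow_eq_pow_mod _ h4] at h6 h7
    by_contra h8
    rcases (by omega : j % 4 = 2 ∨ (j + j) % 4 = 2) with e | e
    · exact h3 (e ▸ h6)
    · exact h3 (e ▸ h7)
  let e : Fin 4 × O ↪ α := ⟨fun x => (w ^ (x.1 : ℕ)) x.2, by
    rintro ⟨k, x⟩ ⟨l, x'⟩ hx
    have h6 : (w ^ (k : ℕ)) x = (w ^ (l : ℕ)) x' := hx
    have h7 := h5 (4 - l + k) x x.2 (by
      rw [pow_add, Perm.mul_apply, h6, ← Perm.mul_apply, ← pow_add, Nat.sub_add_cancel l.2.le, h4]
      exact x'.2)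
    obtain rfl : k = l := Fin.ext (by omega)
    rw [Subtype.ext ((w ^ (k : ℕ)).injective h6)]⟩
  have he : ∀ (g : zpowers c) (k : Fin 4) (x : O), g • e (k, x) = e (k, ⟨g • x, hO g _ x.2⟩) :=
    fun g k x => (hcm k g x).symm
  let ψ : Perm (Fin 4) →* Perm (Fin 4 × O) := MonoidHom.mk' (fun σ => σ.prodCongr (Equiv.refl O)) fun _ _ => rfl
  let φ := (Perm.viaEmbeddingHom e).comp ψ
  have h6 : ∀ σ k x, φ σ (e (k, x)) = e (σ k, x) := fun σ k x => Perm.viaEmbedding_apply _ e (k, x)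
  have h7 : ∀ σ, ∀ x ∉ Set.range e, φ σ x = x := fun σ x hx => Perm.viaEmbedding_apply_of_notMem _ e x hx
  refine ⟨φ, Nat.card O, hc.of_dvd_nat ?_, fun σ => Equiv.ext fun x => ?_, fun σ hσ => ?_⟩
  · rw [← Nat.card_zpowers, Nat.card_congr (MulAction.orbitEquivQuotientStabilizer _ p)]
    exact card_quotient_dvd_card _
  · show (⟨c, mem_zpowers c⟩ : zpowers c) • φ σ x = φ σ ((⟨c, mem_zpowers c⟩ : zpowers c) • x)
    by_cases hx : x ∈ Set.range e
    · obtain ⟨⟨k, x⟩, rfl⟩ := hx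
      rw [h6, he, he, h6]
    · rw [h7 σ x hx, h7]
      rintro ⟨⟨k, y⟩, hy⟩
      exact hx ⟨_, by rw [← he (⟨c, mem_zpowers c⟩ : zpowers c)⁻¹ k y, hy, inv_smul_smul]⟩
  · have h8 : (φ σ).support = Finset.univ.map e := by
      ext x
      rw [Perm.mem_support, Finset.mem_map]
      refine ⟨fun hx => ?_, ?_⟩
      · by_contra h9
        exact hx (h7 σ x fun ⟨y, hy⟩ => h9 ⟨y, Finset.mem_univ y, hy⟩)
      · rintro ⟨⟨k, x⟩, -, rfl⟩ h9
        rw [h6] at h9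
        exact hσ k (congrArg Prod.fst (e.injective h9))
    rw [h8, Finset.card_map, Finset.card_univ, Fintype.card_prod, Fintype.card_fin, Nat.card_eq_fintype_card]

theorem exists_anti {C : Type*} [Group C] (K : Cover α C) {c w : Perm α} (hc : Odd (orderOf c)) (h : Commute w c)
    (h4 : w ^ 4 = 1) (h2 : w ^ 2 ≠ 1) : ∃ s ∈ alternatingGroup α, ∃ t ∈ alternatingGroup α, c * s = s * c ∧ c * t = t * c ∧
      s * s = 1 ∧ t * t = 1 ∧ s * t = t * s ∧ ∀ a b : C, K.π a = s → K.π b = t → a * b ≠ b * a := by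
  obtain ⟨φ, m, hm, h1, h3⟩ := exists_four hc h h4 h2
  obtain ⟨σ, τ, h5, h6, h7, h8, h9, h10⟩ : ∃ σ τ : Perm (Fin 4), σ * σ * (σ * σ) = 1 ∧ τ * τ * (τ * τ) = 1 ∧
      σ * σ * (τ * τ) = τ * τ * (σ * σ) ∧ (∀ k, (σ * σ) k ≠ k) ∧ (∀ k, (τ * τ) k ≠ k) ∧ ∀ k, (σ * σ * (τ * τ)) k ≠ k :=
    ⟨swap 0 1 * swap 1 2 * swap 2 3, swap 0 2 * swap 2 1 * swap 1 3, by decide⟩
  have h11 : ∀ σ, φ (σ * σ) ∈ alternatingGroup α := fun σ => by
    rw [Perm.mem_alternatingGroup, map_mul, map_mul, Int.units_mul_self]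
  have s1 : φ (σ * σ) * φ (σ * σ) = 1 := by rw [← map_mul, h5, map_one]
  have s2 : φ (τ * τ) * φ (τ * τ) = 1 := by rw [← map_mul, h6, map_one]
  have s3 : φ (σ * σ) * φ (τ * τ) = φ (τ * τ) * φ (σ * σ) := by rw [← map_mul, h7, map_mul]
  refine ⟨_, h11 σ, _, h11 τ, h1 _, h1 _, s1, s2, s3, fun a b ha hb hab => K.z_ne ?_⟩
  have q1 := K.sq_eq (ha ▸ s1) (ha ▸ h3 _ h8)
  have q2 := K.sq_eq (hb ▸ s2) (hb ▸ h3 _ h9)
  have q3 := K.sq_eq (g := a * b) (k := m) (by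
    rw [map_mul, ha, hb, Commute.mul_mul_mul_comm s3.symm, s1, s2, mul_one]) (by
    rw [map_mul, ha, hb, ← map_mul, h3 _ h10])
  rw [Commute.mul_mul_mul_comm hab.symm, q1, q2, K.z_pow, if_neg (Nat.not_even_iff_odd.2 hm), K.z_mul_z] at q3
  exact q3.symm

end perm

variable {X : Type*} [Group X]

theorem comm_of_coprime {a y : X} (h : a * y * a⁻¹ * y⁻¹ ∈ center X) {k l : ℕ} (hk : a ^ k = 1) (hl : y ^ l = 1)
    (hkl : k.Coprime l) : a * y = y * a := by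
  obtain ⟨d, hd, e⟩ : ∃ d ∈ center X, a * y = d * y * a := ⟨_, h, by group⟩
  have hc : ∀ x, Commute x d := mem_center_iff.1 hd
  have h1 : ∀ j : ℕ, a ^ j * y = d ^ j * y * a ^ j := fun j => by
    induction j with
    | zero => simp
    | succ j ih =>
      rw [pow_succ', mul_assoc, ih, ← mul_assoc, ← mul_assoc, ((hc a).pow_right j).eq, mul_assoc _ a y, e, pow_succ d]
      simp only [mul_assoc]
  have h2 : ∀ j : ℕ, a * y ^ j = d ^ j * y ^ j * a := fun j => by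
    induction j with
    | zero => simp
    | succ j ih =>
      rw [pow_succ, ← mul_assoc, ih, mul_assoc, e, ← mul_assoc, ← mul_assoc, mul_assoc _ _ d, ((hc y).pow_left j).eq,
        pow_succ d]
      simp only [mul_assoc]
  have h3 := h1 k
  have h4 := h2 l
  rw [hk, one_mul, mul_one, right_eq_mul] at h3
  rw [hl, mul_one, mul_one, right_eq_mul] at h4
  have h5 := pow_gcd_eq_one.2 ⟨h3, h4⟩
  rw [hkl.gcd_eq_one, pow_one] at h5
  rw [e, h5, one_mul]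

theorem exists_order_four {u : X} (k : ℕ) (hk : u ^ 2 ^ k = 1) (h2 : u ^ 2 ≠ 1) : ∃ j : ℕ, (u ^ j) ^ 4 = 1 ∧ (u ^ j) ^ 2 ≠ 1 := by
  induction k generalizing u with
  | zero => exact absurd (by rw [pow_zero, pow_one] at hk; rw [hk, one_pow]) h2
  | succ k ih =>
    by_cases h : (u ^ 2) ^ 2 = 1
    · exact ⟨1, by rw [pow_one, ← h, ← pow_mul], by rwa [pow_one]⟩
    · obtain ⟨j, h3⟩ := ih (by rwa [← pow_mul, ← pow_succ']) h
      exact ⟨2 * j, by rwa [pow_mul]⟩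

/-- **Even covers**: a `2`-element of order at least eight in `C(y)` gives two `2`-elements of `C(y)` with a nontrivial central
commutator. -/
theorem exists_pair [Finite X] {n : ℕ} (hn : 5 ≤ n) (π : X →* alternatingGroup (Fin n)) (hs : Function.Surjective π)
    (hk : π.ker ≤ center X) (hp : commutator X = ⊤) (he : ¬ Odd (Nat.card π.ker)) {y u : X} (hy : Odd (orderOf y)) {k : ℕ}
    (hu : u ^ 2 ^ k = 1) (hc : u * y = y * u) (h4 : u ^ 4 ≠ 1) : ∃ a b : X, (∃ j, a ^ 2 ^ j = 1) ∧ a * y = y * a ∧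
      b * y = y * b ∧ b * a * b⁻¹ * a⁻¹ ∈ center X ∧ b * a ≠ a * b := by
  obtain ⟨e, m, hm, h⟩ := Nat.exists_eq_two_pow_mul_odd (Nat.card_pos (α := X)).ne'
  have hcop : ∀ (j : ℕ) {l : ℕ}, Odd l → (2 ^ j).Coprime l := fun j l hl => (Nat.coprime_two_left.2 hl).pow_left j
  let Z : Subgroup X :=
    { carrier := {z | π z = 1 ∧ z ^ m = 1}
      one_mem' := ⟨map_one π, one_pow m⟩
      mul_mem' := fun {a b} ha hb => ⟨by rw [map_mul, ha.1, hb.1, mul_one], by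
        rw [Commute.mul_pow (mem_center_iff.1 (hk hb.1) a), ha.2, hb.2, mul_one]⟩
      inv_mem' := fun {a} ha => ⟨by rw [map_inv, ha.1, inv_one], by rw [inv_pow, ha.2, inv_one]⟩ }
  have hZ : ∀ z, z ∈ Z ↔ π z = 1 ∧ z ^ m = 1 := fun z => Iff.rfl
  have : Z.Normal := ⟨fun z hz g => by
    rw [mem_center_iff.1 (hk hz.1) g, mul_inv_cancel_right]
    exact hz⟩
  let q := QuotientGroup.mk' Z
  have hq : Function.Surjective q := QuotientGroup.mk'_surjective Z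
  have hq1 : ∀ x, q x = 1 ↔ x ∈ Z := QuotientGroup.eq_one_iff
  let ρ : X ⧸ Z →* alternatingGroup (Fin n) := QuotientGroup.lift Z π fun z hz => hz.1
  have hρ : ∀ x, ρ (q x) = π x := fun _ => rfl
  have hE : OddHalf.CoverAlt.Ext ρ := by
    refine ⟨fun g => (hs g).elim fun x hx => ⟨q x, hx⟩, fun x hx y => ?_, fun x hx => ⟨e, ?_⟩, ?_⟩
    · obtain ⟨x, rfl⟩ := hq x
      obtain ⟨y, rfl⟩ := hq y
      rw [← map_mul, ← map_mul, mem_center_iff.1 (hk hx) y]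
    · obtain ⟨x, rfl⟩ := hq x
      rw [← map_pow, hq1, hZ, map_pow, ← hρ, hx, one_pow, ← pow_mul, ← h, pow_card_eq_one']
      exact ⟨rfl, rfl⟩
    · have h2 := map_commutator_eq X q
      rw [hp, MonoidHom.range_eq_top_of_surjective _ hq, Subgroup.map_top_of_surjective _ hq] at h2
      exact h2.symm
  obtain ⟨z, hz⟩ := hE.isCover hn (by
    have : Fact (Nat.Prime 2) := ⟨Nat.prime_two⟩
    obtain ⟨x, hx⟩ := exists_prime_orderOf_dvd_card' 2 (Nat.not_odd_iff_even.1 he).two_dvd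
    refine ⟨q x, fun h1 => hm.not_two_dvd_nat ?_, x.2⟩
    rw [← hx, ← orderOf_coe]
    exact orderOf_dvd_of_pow_eq_one ((hZ _).1 ((hq1 _).1 h1)).2)
  obtain ⟨j, h5, h6⟩ := exists_order_four (u := π u) k (by rw [← map_pow, hu, map_one]) fun h5 => h4 (by
    have h6 : q (u ^ 4) = 1 := by
      rw [show u ^ 4 = u ^ 2 * u ^ 2 by rw [← pow_add], map_mul]
      rcases (hz.ker (q (u ^ 2))).1 (by rw [hρ, map_pow, h5]) with e | e <;> rw [e]
      exacts [one_mul 1, hz.z_mul]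
    have h7 := pow_gcd_eq_one.2 ⟨(by rw [← pow_mul, mul_comm, pow_mul, hu, one_pow] : (u ^ 4) ^ 2 ^ k = 1),
      ((hZ _).1 ((hq1 _).1 h6)).2⟩
    rwa [(hcop k hm).gcd_eq_one, pow_one] at h7)
  let π' := (alternatingGroup (Fin n)).subtype.comp π
  have hπ' : ∀ x, π' x = 1 → x ∈ center X := fun x hx => hk (Subtype.ext hx)
  obtain ⟨s, hs', t, ht, h7, h8, h9, h10, h11, h12⟩ := exists_anti (SporRec.TwoAn.ofIsCover hn hz) (c := π' y)
    (w := π' u ^ j) (hy.of_dvd_nat (orderOf_map_dvd π' y)) ((Commute.map hc π').pow_left j) (congrArg Subtype.val h5)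
    fun h => h6 (Subtype.ext h)
  have h13 : ∀ s ∈ alternatingGroup (Fin n), π' y * s = s * π' y → s * s = 1 →
      ∃ a : X, π' a = s ∧ a ^ 2 ^ e = 1 ∧ a * y = y * a := fun s h1 h2 h3 => by
    obtain ⟨a, ha⟩ := hs ⟨s, h1⟩
    have h14 : π' (a ^ m) = s := by
      obtain ⟨i, rfl⟩ := hm
      rw [map_pow, show π' a = s from congrArg Subtype.val ha, pow_succ, pow_mul, pow_two, h3, one_pow, one_mul]
    have h15 : (a ^ m) ^ 2 ^ e = 1 := by rw [← pow_mul, mul_comm, ← h, pow_card_eq_one']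
    exact ⟨_, h14, h15, comm_of_coprime (hπ' _ (by
      rw [map_mul, map_mul, map_mul, map_inv, map_inv, h14, ← h2]; group)) h15 (pow_orderOf_eq_one y) (hcop e hy)⟩
  obtain ⟨a, a1, a2, a3⟩ := h13 s hs' h7 h9
  obtain ⟨b, b1, -, b3⟩ := h13 t ht h8 h10
  refine ⟨a, b, ⟨e, a2⟩, a3, b3, hπ' _ ?_, fun h => h12 (q a) (q b) a1 b1 (by rw [← map_mul, ← map_mul, h])⟩
  rw [map_mul, map_mul, map_mul, map_inv, map_inv, a1, b1, ← h11]
  group

end Cfsg.Agent.HZ.Alt
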